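import Mathlib
import Cfsg.Agent.Lib.Helper65.BG.S1391Defs
import Cfsg.Agent.Lib.Helper67.BG.Basics
import Cfsg.Agent.Lib.Helper35.BG.Basic
import Cfsg.Agent.Lib.Helper35.BG.Hall
import Cfsg.Agent.Lib.Helper47.BG.S1385Core
import Cfsg.Agent.Lib.Helper1.FittingPrimary
import Cfsg.Agent.Lib.Helper77.BG.PartnerDT

/-!
# Utilities for the S1391 project (helper65): `M̂_σ`, `A(M)`, `A₀(M)` in σ-language

Membership lemmas, `M`-invariance, and the "class" of an element of `M` with respect to the normal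
Hall subgroups `M_σ` and `U M_σ` (determined by the order of the element).
-/

set_option autoImplicit false

namespace Cfsg.Agent.Lib.Helper77.BG

open Cfsg

universe u

variable {G : Type u} [Group G]

theorem mem_sigmaHat_iff {M : Subgroup G} {a : G} :
    a ∈ sigmaHat M ↔ a ∈ M ∧ ∃ y ∈ sigmaCore M, y ≠ 1 ∧ a * y = y * a := Iff.rfl

theorem mem_sigmaA_iff {M U : Subgroup G} {a : G} :
    a ∈ sigmaA M U ↔ a ∈ sigmaHat M ∧ a ∈ U ⊔ sigmaCore M := Iff.rfl

theorem mem_sigmaA0_iff {M K : Subgroup G} {a : G} :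
    a ∈ sigmaA0 M K ↔ a ∈ sigmaHat M ∧ ¬ ∃ k ∈ K, k ≠ 1 ∧ ∃ m ∈ M, a = m * k * m⁻¹ := Iff.rfl

/-- `y ∈ M` with `y ^ |N| = 1` lies in the normal Hall subgroup `N` of `M`. -/
theorem mem_of_pow_card_eq_one [Finite G] {M N : Subgroup G}
    (hnorm : M ≤ Subgroup.normalizer (N : Set G))
    (hcop : (Nat.card N).Coprime (N.relIndex M)) {y : G} (hy : y ∈ M)
    (hpow : y ^ Nat.card N = 1) : y ∈ N := by
  have : (N.subgroupOf M).Normal := Subgroup.normal_subgroupOf_of_le_normalizer hnorm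
  have ho : orderOf (⟨y, hy⟩ : M) ∣ Nat.card N := by
    rw [Subgroup.orderOf_mk]
    exact orderOf_dvd_of_pow_eq_one hpow
  have hc : (orderOf (⟨y, hy⟩ : M)).Coprime (N.subgroupOf M).index :=
    Nat.Coprime.coprime_dvd_left ho hcop
  have h1 := Cfsg.Agent.Lib.Helper1.mem_of_coprime_index (N.subgroupOf M) ⟨y, hy⟩ hc
  exact Subgroup.mem_subgroupOf.mp h1

/-- Membership in a normal Hall subgroup `N` of `M` is invariant under `G`-conjugation inside
`M`. -/
theorem conj_mem_iff_of_hall [Finite G] {M N : Subgroup G}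
    (hnorm : M ≤ Subgroup.normalizer (N : Set G))
    (hcop : (Nat.card N).Coprime (N.relIndex M)) {x g : G} (hx : x ∈ M)
    (hgx : g * x * g⁻¹ ∈ M) : x ∈ N ↔ g * x * g⁻¹ ∈ N := by
  constructor
  · intro h
    apply mem_of_pow_card_eq_one hnorm hcop hgx
    rw [conj_pow, pow_card_eq_one_of_mem h]
    group
  · intro h
    apply mem_of_pow_card_eq_one hnorm hcop hx
    have h1 := pow_card_eq_one_of_mem h
    rw [conj_pow] at h1
    have h2 : x ^ Nat.card N = g⁻¹ * (g * x ^ Nat.card N * g⁻¹) * g := by group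
    rw [h2, h1]
    group

theorem sigmaCore_coprime_relIndex [Finite G] {M : Subgroup G}
    (hHall : IsPiHallOf (sigma M) (sigmaCore M) M) :
    (Nat.card (sigmaCore M)).Coprime ((sigmaCore M).relIndex M) := by
  apply Nat.coprime_of_dvd
  intro p hp h1 h2
  exact hHall.2.2 p hp (hHall.2.1 p hp h1) h2

/-- `|U M_σ|` is coprime to its index `|K|` in `M`. -/
theorem sup_sigmaCore_coprime_relIndex [Finite G] {M K U : Subgroup G}
    (hKU : IsSigmaDecomposition M K U) :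
    (Nat.card (U ⊔ sigmaCore M : Subgroup G)).Coprime ((U ⊔ sigmaCore M).relIndex M) := by
  have hc := Cfsg.Agent.Lib.Helper47.BG.sigmaDecomposition_complIn M K U hKU
  rw [Cfsg.Agent.Lib.Helper35.BG.relIndex_left_of_isComplIn hc]
  apply Nat.coprime_of_dvd
  intro p hp h1 h2
  have hκ := hKU.hall.2.1 p hp h2
  apply hKU.hall.2.2 p hp hκ
  rw [Cfsg.Agent.Lib.Helper35.BG.relIndex_right_of_isComplIn hc]
  exact h1

theorem sup_sigmaCore_le {M K U : Subgroup G} (hKU : IsSigmaDecomposition M K U) :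
    U ⊔ sigmaCore M ≤ M :=
  sup_le hKU.compl.1 (Cfsg.Agent.Lib.Helper67.BG.sigmaCore_le M)

/-- If `K = 1` then `U M_σ = M`. -/
theorem mem_sup_sigmaCore_of_bot {M K U : Subgroup G} (hKU : IsSigmaDecomposition M K U)
    (hK : K = ⊥) {x : G} (hx : x ∈ M) : x ∈ U ⊔ sigmaCore M := by
  obtain ⟨u, hu, b, hb, rfl⟩ := hKU.compl.2.2.2 x hx
  rw [hK, bot_sup_eq] at hb
  exact Subgroup.mul_mem_sup hu hb

theorem conj_mem_of_le_normalizer {M N : Subgroup G}
    (hnorm : M ≤ Subgroup.normalizer (N : Set G)) {m a : G} (hm : m ∈ M) :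
    a ∈ N ↔ m * a * m⁻¹ ∈ N :=
  Subgroup.mem_normalizer_iff.mp (hnorm hm) a

/-- `M̂_σ` is `M`-invariant. -/
theorem conj_mem_sigmaHat {M : Subgroup G} {m a : G} (hm : m ∈ M) (ha : a ∈ sigmaHat M) :
    m * a * m⁻¹ ∈ sigmaHat M := by
  obtain ⟨haM, y, hy, hy1, hay⟩ := ha
  refine ⟨M.mul_mem (M.mul_mem hm haM) (M.inv_mem hm), m * y * m⁻¹, ?_, ?_, ?_⟩
  · exact (conj_mem_of_le_normalizer (Cfsg.Agent.Lib.Helper67.BG.sigmaCore_normalizer M) hm).mp hy
  · intro h
    apply hy1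
    have h1 : y = m⁻¹ * (m * y * m⁻¹) * m := by group
    rw [h1, h]
    group
  · calc m * a * m⁻¹ * (m * y * m⁻¹) = m * (a * y) * m⁻¹ := by group
      _ = m * (y * a) * m⁻¹ := by rw [hay]
      _ = m * y * m⁻¹ * (m * a * m⁻¹) := by group

/-- `A₀(M)` (σ-language) is `M`-invariant. -/
theorem conj_mem_sigmaA0 {M K : Subgroup G} {m a : G} (hm : m ∈ M) (ha : a ∈ sigmaA0 M K) :
    m * a * m⁻¹ ∈ sigmaA0 M K := by
  refine ⟨conj_mem_sigmaHat hm ha.1, ?_⟩
  rintro ⟨k, hk, hk1, m', hm', h⟩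
  apply ha.2
  refine ⟨k, hk, hk1, m⁻¹ * m', M.mul_mem (M.inv_mem hm) hm', ?_⟩
  have h1 : a = m⁻¹ * (m * a * m⁻¹) * m := by group
  rw [h1, h]
  group

end Cfsg.Agent.Lib.Helper77.BG
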