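import Mathlib
import Cfsg.Agent.Lib.Helper65.BG.S1391Defs
import Cfsg.Agent.Lib.Helper67.BG.HallUtil
import Cfsg.Agent.Lib.Helper77.BG.S1391Util

/-!
# Package Cent of the S1391 project (helper65)

An element of `A₀(M)` (σ-language) whose centralizer is not contained in `M` lies in `M_σ`.
-/

set_option autoImplicit false

namespace Cfsg.Agent.Lib.Helper77.BG

open Cfsg Cfsg.Agent.Lib.Helper65.BG91

universe u

theorem lemCent : LemCent.{u} := by
  intro G _ _ hG h1350 _h1352 h1361 h1370 h1371 M hM K U hKU x hx hx1 hxC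
  by_contra hxMs
  have hxM : x ∈ M := hx.1.1
  have hHall := (h1350 M hM).1
  have hMsM := Cfsg.Agent.Lib.Helper67.BG.sigmaCore_le M
  have hMsN := Cfsg.Agent.Lib.Helper67.BG.sigmaCore_normalizer M
  apply hxC
  by_cases hxN0 : x ∈ U ⊔ sigmaCore M
  · -- class (b)
    obtain ⟨y, hy, hy1, hxy⟩ := hx.1.2
    -- the σ(M)'-part of x
    have hx'1 : x ^ Nat.card (sigmaCore M) ≠ 1 := fun h =>
      hxMs (mem_of_pow_card_eq_one hMsN (sigmaCore_coprime_relIndex hHall) hxM h)
    have hx'M : x ^ Nat.card (sigmaCore M) ∈ M := M.pow_mem hxM _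
    have hx'N0 : x ^ Nat.card (sigmaCore M) ∈ U ⊔ sigmaCore M := Subgroup.pow_mem _ hxN0 _
    have ho1 : orderOf (x ^ Nat.card (sigmaCore M)) ∣ (sigmaCore M).relIndex M := by
      apply orderOf_dvd_of_pow_eq_one
      rw [← pow_mul, Cfsg.Agent.Lib.Helper23.card_mul_relIndex hMsM]
      exact pow_card_eq_one_of_mem hxM
    have ho2 : orderOf (x ^ Nat.card (sigmaCore M)) ∣ Nat.card (U ⊔ sigmaCore M : Subgroup G) :=
      Subgroup.orderOf_dvd_natCard _ hx'N0
    have hcK := Cfsg.Agent.Lib.Helper47.BG.sigmaDecomposition_complIn M K U hKU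
    have hsolv : Group.IsSolvable M := Cfsg.Agent.Lib.Helper35.BG.isSolvable_of_ne_top hG hM.1
    obtain ⟨U', hU', hXU'⟩ := Cfsg.Agent.Lib.Helper67.BG.exists_piHallOf_ge
      {q | q.Prime ∧ q ∉ kappa M ∧ q ∉ sigma M} M hsolv
      (Subgroup.zpowers (x ^ Nat.card (sigmaCore M)))
      (by rw [Subgroup.zpowers_le]; exact hx'M)
      (by
        intro p hp hdvd
        rw [Nat.card_zpowers] at hdvd
        refine ⟨hp, fun hκ => ?_, fun hσ => ?_⟩
        · apply hKU.hall.2.2 p hp hκ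
          rw [Cfsg.Agent.Lib.Helper35.BG.relIndex_right_of_isComplIn hcK]
          exact dvd_trans hdvd ho2
        · exact hHall.2.2 p hp hσ (dvd_trans hdvd ho1))
    obtain ⟨m, hm, hU'eq⟩ := Cfsg.Agent.Lib.Helper35.BG.exists_conj_of_isPiHallOf hsolv
      (Cfsg.Agent.Lib.Helper35.BG.isPiHallOf_of_sigmaDecomposition hHall hKU) hU'
    -- x₁ := m⁻¹ x' m ∈ U
    have hx₁U : m⁻¹ * x ^ Nat.card (sigmaCore M) * m ∈ U := by
      have h1 : x ^ Nat.card (sigmaCore M) ∈ U' := hXU' (Subgroup.mem_zpowers _)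
      rw [hU'eq, Cfsg.Agent.Lib.Helper35.BG.mem_map_conj_iff] at h1
      exact h1
    have hx₁1 : m⁻¹ * x ^ Nat.card (sigmaCore M) * m ≠ 1 := by
      intro h
      apply hx'1
      have h1 : x ^ Nat.card (sigmaCore M) =
          m * (m⁻¹ * x ^ Nat.card (sigmaCore M) * m) * m⁻¹ := by group
      rw [h1, h]
      group
    have hminv : m⁻¹ ∈ M := M.inv_mem hm
    have hy₁ : m⁻¹ * y * m ∈ sigmaCore M := by
      have h1 := (conj_mem_of_le_normalizer hMsN hminv).mp hy
      simpa using h1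
    have hy₁1 : m⁻¹ * y * m ≠ 1 := by
      intro h
      apply hy1
      have h1 : y = m * (m⁻¹ * y * m) * m⁻¹ := by group
      rw [h1, h]
      group
    have hcomm' : Commute (x ^ Nat.card (sigmaCore M)) y :=
      (show Commute x y from hxy).pow_left _
    have hcomm₁ : Commute (m⁻¹ * x ^ Nat.card (sigmaCore M) * m) (m⁻¹ * y * m) := by
      show m⁻¹ * x ^ Nat.card (sigmaCore M) * m * (m⁻¹ * y * m) =
        m⁻¹ * y * m * (m⁻¹ * x ^ Nat.card (sigmaCore M) * m)
      calc m⁻¹ * x ^ Nat.card (sigmaCore M) * m * (m⁻¹ * y * m)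
          = m⁻¹ * (x ^ Nat.card (sigmaCore M) * y) * m := by group
        _ = m⁻¹ * (y * x ^ Nat.card (sigmaCore M)) * m := by rw [hcomm'.eq]
        _ = m⁻¹ * y * m * (m⁻¹ * x ^ Nat.card (sigmaCore M) * m) := by group
    have hcent := (h1361 M hM K U hKU
      (Subgroup.zpowers (m⁻¹ * x ^ Nat.card (sigmaCore M) * m))
      (by rw [Subgroup.zpowers_le]; exact hx₁U)
      (by rw [Ne, Subgroup.zpowers_eq_bot]; exact hx₁1)
      (by
        intro hbot
        have hmem : m⁻¹ * y * m ∈ sigmaCore M ⊓ Subgroup.centralizer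
            ((Subgroup.zpowers (m⁻¹ * x ^ Nat.card (sigmaCore M) * m) : Subgroup G) : Set G) := by
          refine Subgroup.mem_inf.mpr ⟨hy₁, ?_⟩
          rw [Subgroup.mem_centralizer_iff]
          intro w hw
          obtain ⟨k, rfl⟩ := Subgroup.mem_zpowers_iff.mp hw
          exact (hcomm₁.zpow_left k).eq
        rw [hbot, Subgroup.mem_bot] at hmem
        exact hy₁1 hmem)).1
    intro t ht
    have htx : Commute x t := Subgroup.mem_centralizer_iff.mp ht x (Set.mem_singleton x)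
    have htx' : Commute (x ^ Nat.card (sigmaCore M)) t := htx.pow_left _
    have h1 : m⁻¹ * t * m ∈ Subgroup.centralizer
        ((Subgroup.zpowers (m⁻¹ * x ^ Nat.card (sigmaCore M) * m) : Subgroup G) : Set G) := by
      rw [Subgroup.mem_centralizer_iff]
      intro w hw
      obtain ⟨k, rfl⟩ := Subgroup.mem_zpowers_iff.mp hw
      have h2 : Commute (m⁻¹ * x ^ Nat.card (sigmaCore M) * m) (m⁻¹ * t * m) := by
        show m⁻¹ * x ^ Nat.card (sigmaCore M) * m * (m⁻¹ * t * m) =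
          m⁻¹ * t * m * (m⁻¹ * x ^ Nat.card (sigmaCore M) * m)
        calc m⁻¹ * x ^ Nat.card (sigmaCore M) * m * (m⁻¹ * t * m)
            = m⁻¹ * (x ^ Nat.card (sigmaCore M) * t) * m := by group
          _ = m⁻¹ * (t * x ^ Nat.card (sigmaCore M)) * m := by rw [htx'.eq]
          _ = m⁻¹ * t * m * (m⁻¹ * x ^ Nat.card (sigmaCore M) * m) := by group
      exact (h2.zpow_left k).eq
    have h3 := hcent h1
    have h4 : t = m * (m⁻¹ * t * m) * m⁻¹ := by group
    rw [h4]
    exact M.mul_mem (M.mul_mem hm h3) hminv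
  · -- class (c)
    have hK1 : K ≠ ⊥ := fun hK => hxN0 (mem_sup_sigmaCore_of_bot hKU hK hxM)
    have hxT : x ∈ sigmaA0 M K \ sigmaA M U := ⟨hx, fun h => hxN0 h.2⟩
    rw [← (h1371 M hM K U hKU hK1).1] at hxT
    obtain ⟨m, hm, z, hz, rfl⟩ := hxT
    obtain ⟨hTI, hNZ⟩ := h1370 M hM K U hKU hK1
    have hz1 : z ≠ 1 := by
      intro h
      apply hz.2
      left
      rw [h]
      exact K.one_mem
    have hZM : K ⊔ (sigmaCore M ⊓ Subgroup.centralizer (K : Set G)) ≤ M :=
      sup_le hKU.hall.1 (inf_le_left.trans hMsM)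
    intro t ht
    have htz : Commute (m * z * m⁻¹) t :=
      Subgroup.mem_centralizer_iff.mp ht _ (Set.mem_singleton _)
    have hconj : (m⁻¹ * t * m) * z * (m⁻¹ * t * m)⁻¹ = z := by
      calc (m⁻¹ * t * m) * z * (m⁻¹ * t * m)⁻¹ = m⁻¹ * (t * (m * z * m⁻¹)) * t⁻¹ * m := by group
        _ = m⁻¹ * ((m * z * m⁻¹) * t) * t⁻¹ * m := by rw [htz.eq]
        _ = z := by group
    have h1 : m⁻¹ * t * m ∈ Subgroup.normalizer
        ((↑(K ⊔ (sigmaCore M ⊓ Subgroup.centralizer (K : Set G))) : Set G) \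
          ((K : Set G) ∪ ↑(sigmaCore M ⊓ Subgroup.centralizer (K : Set G)))) := by
      by_contra hn
      exact hz1 (hTI _ hn z hz (by rw [hconj]; exact hz))
    rw [hNZ] at h1
    have h3 := hZM h1
    have h4 : t = m * (m⁻¹ * t * m) * m⁻¹ := by group
    rw [h4]
    exact M.mul_mem (M.mul_mem hm h3) (M.inv_mem hm)

end Cfsg.Agent.Lib.Helper77.BG
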