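import Mathlib
import Cfsg.Agent.Lib.Helper65.BG.S1391Defs
import Cfsg.Agent.Lib.Helper62.BG.S1362Core
import Cfsg.Agent.Lib.Helper77.BG.S1391Util

/-!
# Package Fus of the S1391 project (helper65): `M` controls `G`-fusion in `A₀(M)` (σ-language)
-/

set_option autoImplicit false

namespace Cfsg.Agent.Lib.Helper77.BG

open Cfsg Cfsg.Agent.Lib.Helper65.BG91

universe u

theorem lemFus (hNorm : LemNorm.{u}) : LemFus.{u} := by
  intro G _ _ hG h1350 h1352 h1362 h1371 h1374 M hM K U hKU x hx hx1 g hgx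
  have hxM : x ∈ M := hx.1.1
  have hgxM : g * x * g⁻¹ ∈ M := hgx.1.1
  have hM1 : M ≠ ⊥ := by
    intro h
    rw [h, Subgroup.mem_bot] at hxM
    exact hx1 hxM
  have hHall := (h1350 M hM).1
  have hMsN := Cfsg.Agent.Lib.Helper67.BG.sigmaCore_normalizer M
  have hN0N := (h1352 M hM K hKU.cyclic hKU.hall).2 U hKU
  by_cases hxMs : x ∈ sigmaCore M
  · -- class (a): `x ∈ M_σ`
    obtain ⟨-, R, -, hRc, hR⟩ := h1374 M hM x hxMs hx1
    have hxconj : x ∈ M.map (MulAut.conj g⁻¹).toMonoidHom := by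
      rw [Cfsg.Agent.Lib.Helper35.BG.mem_map_conj_iff]
      simpa using hgxM
    obtain ⟨r, ⟨hrR, hrM⟩, -⟩ := hR g⁻¹ hxconj
    have hrc : r ∈ Subgroup.centralizer ({x} : Set G) := hRc.2.1 hrR
    have hgr : g * r ∈ M := by
      have h1 : M.map (MulAut.conj (g * r)).toMonoidHom = M := by
        rw [← Cfsg.Agent.Lib.Helper35.BG.map_conj_mul, hrM,
          Cfsg.Agent.Lib.Helper35.BG.map_conj_mul, mul_inv_cancel,
          Cfsg.Agent.Lib.Helper35.BG.map_conj_one]
      have h2 := Cfsg.Agent.Lib.Helper35.BG.mem_normalizer_of_map_conj_eq h1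
      rw [Cfsg.Agent.Lib.Helper62.BG.normalizer_coatom_eq_self hG hM hM1] at h2
      exact h2
    refine ⟨g * r, hgr, ?_⟩
    have hrx : x * r = r * x := Subgroup.mem_centralizer_iff.mp hrc x (Set.mem_singleton x)
    calc g * r * x * (g * r)⁻¹ = g * (r * x) * r⁻¹ * g⁻¹ := by group
      _ = g * (x * r) * r⁻¹ * g⁻¹ := by rw [hrx]
      _ = g * x * g⁻¹ := by group
  · have hgxMs : g * x * g⁻¹ ∉ sigmaCore M := fun h =>
      hxMs ((conj_mem_iff_of_hall hMsN (sigmaCore_coprime_relIndex hHall) hxM hgxM).mpr h)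
    by_cases hxN0 : x ∈ U ⊔ sigmaCore M
    · -- class (b): `x ∈ U M_σ \ M_σ`
      have hgxN0 : g * x * g⁻¹ ∈ U ⊔ sigmaCore M :=
        (conj_mem_iff_of_hall hN0N (sup_sigmaCore_coprime_relIndex hKU) hxM hgxM).mp hxN0
      have hT := h1362 M hM K U hKU
      have hxT : x ∈ sigmaA M U \ (sigmaCore M : Set G) := ⟨⟨hx.1, hxN0⟩, hxMs⟩
      have hgxT : g * x * g⁻¹ ∈ sigmaA M U \ (sigmaCore M : Set G) := ⟨⟨hgx.1, hgxN0⟩, hgxMs⟩
      have hgN : g ∈ Subgroup.normalizer (sigmaA M U \ (sigmaCore M : Set G)) := by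
        by_contra hg
        exact hx1 (hT g hg x hxT hgxT)
      have hNeq : Subgroup.normalizer (sigmaA M U \ (sigmaCore M : Set G)) = M := by
        apply hNorm hG M hM
        · intro s hs
          exact hs.1.1.1
        · intro m hm s hs
          exact ⟨⟨conj_mem_sigmaHat hm hs.1.1, (conj_mem_of_le_normalizer hN0N hm).mp hs.1.2⟩,
            fun h => hs.2 ((conj_mem_of_le_normalizer hMsN hm).mpr h)⟩
        · exact ⟨x, hxT, hx1⟩
      rw [hNeq] at hgN
      exact ⟨g, hgN, rfl⟩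
    · -- class (c): `x ∉ U M_σ`
      have hgxN0 : g * x * g⁻¹ ∉ U ⊔ sigmaCore M := fun h =>
        hxN0 ((conj_mem_iff_of_hall hN0N (sup_sigmaCore_coprime_relIndex hKU) hxM hgxM).mpr h)
      have hK1 : K ≠ ⊥ := fun hK => hxN0 (mem_sup_sigmaCore_of_bot hKU hK hxM)
      have hT := (h1371 M hM K U hKU hK1).2
      have hxT : x ∈ sigmaA0 M K \ sigmaA M U := ⟨hx, fun h => hxN0 h.2⟩
      have hgxT : g * x * g⁻¹ ∈ sigmaA0 M K \ sigmaA M U := ⟨hgx, fun h => hgxN0 h.2⟩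
      have hgN : g ∈ Subgroup.normalizer (sigmaA0 M K \ sigmaA M U) := by
        by_contra hg
        exact hx1 (hT g hg x hxT hgxT)
      have hNeq : Subgroup.normalizer (sigmaA0 M K \ sigmaA M U) = M := by
        apply hNorm hG M hM
        · intro s hs
          exact hs.1.1.1
        · intro m hm s hs
          exact ⟨conj_mem_sigmaA0 hm hs.1,
            fun h => hs.2 ⟨hs.1.1, (conj_mem_of_le_normalizer hN0N hm).mpr h.2⟩⟩
        · exact ⟨x, hxT, hx1⟩
      rw [hNeq] at hgN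
      exact ⟨g, hgN, rfl⟩

end Cfsg.Agent.Lib.Helper77.BG
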